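import Mathlib.RingTheory.Noetherian.OfPrime
import Mathlib.RingTheory.Finiteness.Ideal
import Mathlib.RingTheory.Ideal.Maps
import Mathlib.RingTheory.Nilpotent.Lemmas

/-!
# Noetherian rings and nilpotent ideals
-/

set_option autoImplicit false
universe u v w

namespace Groth.Agent.Fcompl.H545.NilNoeth

variable {A : Type u} [CommRing A]

/-- Nakayama for a nilpotent ideal: `I ≤ S ⊔ I^2` implies `I ≤ S`. -/
theorem le_of_le_sup_sq {I S : Ideal A} (h : I ≤ S ⊔ I ^ 2) (hn : IsNilpotent I) : I ≤ S := by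
  obtain ⟨n, hn⟩ := hn
  have key : ∀ k : ℕ, I ≤ S ⊔ I ^ (k + 1) := by
    intro k
    induction k with
    | zero => rw [pow_one]; exact le_sup_right
    | succ k ih =>
      refine h.trans (sup_le le_sup_left ?_)
      calc I ^ 2 = I * I := pow_two I
        _ ≤ I * (S ⊔ I ^ (k + 1)) := Ideal.mul_mono_right ih
        _ = I * S ⊔ I * I ^ (k + 1) := Ideal.mul_sup _ _ _
        _ ≤ S ⊔ I ^ (k + 1 + 1) := sup_le_sup Ideal.mul_le_right (by rw [← pow_succ'])
  refine (key n).trans (sup_le le_rfl ?_)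
  rw [pow_succ, hn, zero_mul]
  exact bot_le

/-- A finitely generated image of an ideal lifts to a finitely generated subideal up to the kernel. -/
theorem exists_fg_le_sup_ker {B : Type v} [CommRing B] (φ : A →+* B) (hφ : Function.Surjective φ)
    (I : Ideal A) (hI : (I.map φ).FG) :
    ∃ S : Ideal A, S.FG ∧ S ≤ I ∧ I ≤ S ⊔ RingHom.ker φ := by
  classical
  obtain ⟨t, ht⟩ := hI
  have h1 : ∀ b : t, ∃ a ∈ I, φ a = b.1 := fun b => by
    have hb : b.1 ∈ I.map φ := by rw [← ht]; exact Ideal.subset_span b.2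
    exact (Ideal.mem_map_iff_of_surjective φ hφ).mp hb
  choose a haI ha using h1
  refine ⟨Ideal.span (Set.range a), ?_, ?_, ?_⟩
  · exact ⟨(Set.finite_range a).toFinset, by rw [Set.Finite.coe_toFinset]⟩
  · rw [Ideal.span_le]; rintro _ ⟨b, rfl⟩; exact haI b
  · have h2 : I.map φ ≤ (Ideal.span (Set.range a)).map φ := by
      rw [← ht, Ideal.span_le]
      intro b hb
      have h4 := Ideal.mem_map_of_mem φ (Ideal.subset_span ⟨⟨b, hb⟩, rfl⟩ :
        a ⟨b, hb⟩ ∈ Ideal.span (Set.range a))
      rw [ha ⟨b, hb⟩] at h4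
      exact h4
    have h3 := Ideal.comap_mono (f := φ) h2
    rw [Ideal.comap_map_of_surjective φ hφ, Ideal.comap_map_of_surjective φ hφ] at h3
    exact le_sup_left.trans h3

/-- If `I = ker χ` is finitely generated and nilpotent with `χ` surjective onto a Noetherian ring, then the
source is Noetherian. -/
theorem isNoetherianRing_of_fg_nil {C : Type w} [CommRing C] [IsNoetherianRing C] (χ : A →+* C)
    (hχ : Function.Surjective χ) (hfg : (RingHom.ker χ).FG) (hn : IsNilpotent (RingHom.ker χ)) :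
    IsNoetherianRing A := by
  refine IsNoetherianRing.of_prime fun P hP => ?_
  have h1 : RingHom.ker χ ≤ P := by
    obtain ⟨n, hn⟩ := hn
    refine hP.le_of_pow_le (n := n) ?_
    rw [hn]
    exact bot_le
  refine Ideal.fg_of_fg_map_of_fg_inf_ker_of_surjective (f := χ) (IsNoetherian.noetherian _) ?_ hχ
  rw [inf_eq_right.mpr h1]
  exact hfg

/-- The induction step of the Noetherianity of the levels. -/
theorem isNoetherianRing_step {B : Type v} {C : Type w} [CommRing B] [CommRing C] [IsNoetherianRing B]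
    [IsNoetherianRing C] (φ : A →+* B) (χ : A →+* C)
    (hφ : Function.Surjective φ) (hχ : Function.Surjective χ)
    (hker : RingHom.ker φ ≤ RingHom.ker χ ^ 2) (hn : IsNilpotent (RingHom.ker χ)) :
    IsNoetherianRing A := by
  obtain ⟨S, hS, hSI, hle⟩ := exists_fg_le_sup_ker φ hφ (RingHom.ker χ) (IsNoetherian.noetherian _)
  have h1 : RingHom.ker χ ≤ S := le_of_le_sup_sq (hle.trans (sup_le_sup le_rfl hker)) hn
  have h2 : RingHom.ker χ = S := le_antisymm h1 hSI
  exact isNoetherianRing_of_fg_nil χ hχ (h2 ▸ hS) hn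

end Groth.Agent.Fcompl.H545.NilNoeth
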