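import Mathlib.AlgebraicGeometry.IdealSheaf.Functorial
import Mathlib.AlgebraicGeometry.Morphisms.ClosedImmersion

/-!
# Kernels of morphisms between spectra

`ideal_top_ker_specMap`: the ideal of global sections of the kernel ideal sheaf of `Spec φ`.
`ker_specMap_eq_pow`: if `ker φ = (ker ψ)^k` then the same holds for the kernel ideal sheaves.
-/

set_option autoImplicit false
universe u

open CategoryTheory AlgebraicGeometry

namespace Groth.Agent.Fcompl.H545.SpecKer

/-- Global sections of the kernel ideal sheaf of `Spec φ`. -/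
theorem ideal_top_ker_specMap {R S : CommRingCat.{u}} (φ : R ⟶ S) :
    (Spec.map φ).ker.ideal ⟨⊤, isAffineOpen_top _⟩ =
      (RingHom.ker φ.hom).map (Scheme.ΓSpecIso R).inv.hom := by
  have h1 : (RingHom.ker φ.hom).map (Scheme.ΓSpecIso R).inv.hom =
      (RingHom.ker φ.hom).comap (Scheme.ΓSpecIso R).hom.hom :=
    Ideal.map_comap_of_equiv (Scheme.ΓSpecIso R).symm.commRingCatIsoToRingEquiv
  rw [h1, Scheme.Hom.ker_apply]
  change RingHom.ker (Spec.map φ).appTop.hom = _
  ext x
  rw [RingHom.mem_ker, Ideal.mem_comap, RingHom.mem_ker]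
  have h2 := Scheme.ΓSpecIso_naturality φ
  have h3 : (Scheme.ΓSpecIso S).hom.hom ((Spec.map φ).appTop.hom x) =
      φ.hom ((Scheme.ΓSpecIso R).hom.hom x) := by
    rw [← RingHom.comp_apply, ← RingHom.comp_apply, ← CommRingCat.hom_comp, ← CommRingCat.hom_comp, h2]
  rw [← h3]
  exact (map_eq_zero_iff _ (ConcreteCategory.bijective_of_isIso (Scheme.ΓSpecIso S).hom).1).symm

/-- If `ker φ = (ker ψ)^k` then the kernel ideal sheaf of `Spec φ` is the `k`-th power of that of `Spec ψ`. -/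
theorem ker_specMap_eq_pow {R S T : CommRingCat.{u}} (φ : R ⟶ S) (ψ : R ⟶ T) (k : ℕ)
    (h : RingHom.ker φ.hom = RingHom.ker ψ.hom ^ k) :
    (Spec.map φ).ker = (Spec.map ψ).ker ^ k := by
  apply Scheme.IdealSheafData.ext_of_isAffine
  rw [Scheme.IdealSheafData.ideal_pow, Pi.pow_apply, ideal_top_ker_specMap, ideal_top_ker_specMap, h,
    Ideal.map_pow]

/-- Conversely. -/
theorem ker_eq_pow_of_ker_specMap {R S T : CommRingCat.{u}} (φ : R ⟶ S) (ψ : R ⟶ T) (k : ℕ)
    (h : (Spec.map φ).ker = (Spec.map ψ).ker ^ k) :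
    RingHom.ker φ.hom = RingHom.ker ψ.hom ^ k := by
  have h1 := congr(($h).ideal ⟨⊤, isAffineOpen_top _⟩)
  rw [Scheme.IdealSheafData.ideal_pow, Pi.pow_apply, ideal_top_ker_specMap, ideal_top_ker_specMap,
    ← Ideal.map_pow] at h1
  have h2 := congr(Ideal.map (Scheme.ΓSpecIso R).hom.hom $h1)
  rw [Ideal.map_map, Ideal.map_map, ← CommRingCat.hom_comp, Iso.inv_hom_id] at h2
  simpa using h2

end Groth.Agent.Fcompl.H545.SpecKer
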